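import Cfsg.Agent.Lib.Q5H.Def
import Cfsg.Agent.Lib.Chev.FoldG2
import Cfsg.Agent.S1059
import Cfsg.Agent.S1067
import Cfsg.Agent.S4278

/-!
# Q5H/D4: `³D₄(r)`, `r` odd, has one class of involutions
-/

set_option autoImplicit false

namespace Cfsg.Lib.Q5H

open Cfsg.Lie Cfsg.Lib.Chev Cfsg.Lib.Chev.RootSys Cfsg.Lib.Chev.ChevSys Cfsg.Lib.Twisted

namespace D4

theorem ex_fold (F : Type) [Field F] [Finite F] : ∃ ψ : chevG2.group F →* chevD4.group F, Function.Injective ψ ∧
    (∀ (k : Fin 2) t, ψ ((checkedG2.gsys F).x (checkedG2.R.simple k) t) = xs (CD4 F) (![[0, 2, 3], [1]] k) fun _ => t) ∧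
    ∀ (k : Fin 2) t, ψ ((checkedG2.gsys F).x (checkedG2.R.neg (checkedG2.R.simple k)) t) =
      ys (CD4 F) (![[0, 2, 3], [1]] k) fun _ => t := by
  obtain ⟨ψ, hψ⟩ := checkedD4.exists_fold (F := F) checkedG2 foG2 (checkedG2.noA1 (by simp))
    (kerDataG2 _).kerChr_eq_bot foG2_chk
  replace hψ := fun r => hψ ⟨0, by decide⟩ ⟨1, by decide⟩ r fun i hi => absurd (by
    revert i; decide) hi
  have h2 : ∀ (k : Fin 2) t, ψ ((checkedG2.gsys F).x (checkedG2.R.neg (checkedG2.R.simple k)) t) =
      ys (CD4 F) (![[0, 2, 3], [1]] k) fun _ => t := fun k t =>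
    (hψ _ t).trans (foX_eq_ys _ _ (by revert k; decide +kernel) t)
  exact ⟨ψ, faithful_D4.injective_of_UV (checkedG2.gsys_faithful F) (checkedG2.gsys_adjoint F)
    (checkedG2.gsys_grp F) (connG2 _) (ψ := ψ) (fun r hr t => hψ r t ▸ foX_mem_U _ _ (by
      rw [← checkedG2.isPosRoot_iff] at hr
      revert r
      decide +kernel) t) (i := (1 : Fin 2))
      (by rw [h2]; simpa [ys] using PreSys.x_mem_V _ (isPos_neg_iff.not.2 (by simp [isPos_simple])) _)
      (by rw [h2]; exact ys_one_ne_one faithful_D4 (by decide) (by decide)),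
    fun k t => (hψ _ t).trans (foX_eq_xs _ _ (by revert k; decide +kernel) t), h2⟩

theorem x_map {F K : Type} [Field F] [Field K] (f : F →+* K) (r : ℕ) (t : F) :
    (chevD4.x F r t).map f = chevD4.x K r (f t) := by
  unfold ChevalleyDatum.x
  split_ifs
  · ext (i | i) (j | j) <;> simp [ChevalleyDatum.xMat, apply_ite f, map_list_sum, Function.comp_def]
  · simp

end D4

open D4

/-- `G₂(r) ≤ ³D₄(r)`.  `r` is a power of `p = char K`; take the subfield `F` of `K` with `r` elements (or
`GaloisField` and an embedding `ι` as in `G2S.model_D4`).  The injective `ψ : chevG2.group F →* chevD4.group F` of the proof of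
`Chev.nonempty_fix_D4` (facts `h1 h2 h4` there; copy them) sends the simple root elements to `x_{±p₂}(t)` and
`x_{±p₁}(t) x_{±p₃}(t) x_{±p₄}(t)`; the entrywise map `GL F → GL K` sends these to generators (`d4Words`) of `twistedD4 K r` as
`(ι t) ^ r = ι t` (compare `G2S.mem_D4_map`, fact `x`), and the simple root elements generate `G₂(F)`. -/
theorem g2_le_d4 {K : Type} [Field K] [Fintype K] {r : ℕ} (hK : Fintype.card K = r ^ 3) :
    ∃ (F : Type) (_ : Field F) (_ : Fintype F) (f : Lie.chevG2.group F →* Lie.twistedD4 K r),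
      Fintype.card F = r ∧ Function.Injective f := by
  obtain ⟨p, _, n, hp, e⟩ := FiniteField.card' K
  obtain ⟨a, -, rfl⟩ := (Nat.dvd_prime_pow hp).1 (e ▸ hK ▸ dvd_pow_self r three_ne_zero)
  have ha : a ≠ 0 := by
    rintro rfl
    have := Fintype.one_lt_card (α := K)
    simp [hK] at this
  have := Fact.mk hp
  let _ := ZMod.algebra K p
  let _ := Fintype.ofFinite (GaloisField p a)
  have hF : Fintype.card (GaloisField p a) = p ^ a := by rw [← Nat.card_eq_fintype_card, GaloisField.card p a ha]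
  obtain ⟨ι⟩ := FiniteField.nonempty_algHom_of_finrank_dvd (F := ZMod p) (K := GaloisField p a) (L := K) ⟨3, by
    rw [GaloisField.finrank p ha]
    refine Nat.pow_right_injective hp.two_le ?_
    have := Module.card_eq_pow_finrank (K := ZMod p) (V := K)
    rw [ZMod.card] at this
    simp only [← this, hK, pow_mul]⟩
  replace ι := ι.toRingHom
  obtain ⟨ψ, i, h1, h2⟩ := ex_fold (GaloisField p a)
  have fx : ∀ t, ι t ^ p ^ a = ι t := fun t => by rw [← map_pow, ← hF, FiniteField.pow_card]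
  let f := (Matrix.GeneralLinearGroup.map ι).comp ((chevD4.group _).subtype.comp ψ)
  have m : ⊤ ≤ (twistedD4 K (p ^ a)).comap f := by
    refine (checkedG2.gsys_grp _).ge.trans (grp_le_of_simple _ (fun (k : Fin 2) t => Subgroup.subset_closure ?_)
      fun (k : Fin 2) t => Subgroup.subset_closure ?_) <;> fin_cases k
    · refine ⟨_, .inr ⟨ι t, _, .head _, rfl⟩, ?_⟩
      change (ψ _).1.1.map ι = _
      simp [h1, xs, xp_D4, coe_xN, ChevalleyDatum.wordMat, Matrix.map_mul, x_map, pow_two, pow_mul, fx]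
    · refine ⟨_, .inl ⟨ι t, fx t, _, .head _, rfl⟩, ?_⟩
      change (ψ _).1.1.map ι = _
      simp [h1, xs, xp_D4, coe_xN, ChevalleyDatum.wordMat, x_map]
    · refine ⟨_, .inr ⟨ι t, _, .tail _ (.head _), rfl⟩, ?_⟩
      change (ψ _).1.1.map ι = _
      simp [h2, ys, xm_D4, coe_xN, ChevalleyDatum.wordMat, Matrix.map_mul, x_map, pow_two, pow_mul, fx]
    · refine ⟨_, .inl ⟨ι t, fx t, _, .tail _ (.head _), rfl⟩, ?_⟩
      change (ψ _).1.1.map ι = _
      simp [h2, ys, xm_D4, coe_xN, ChevalleyDatum.wordMat, x_map]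
  exact ⟨_, _, _, f.codRestrict _ fun g => m (Subgroup.mem_top g), hF, fun x y e => i (Subtype.ext (Units.ext
    (Matrix.map_injective ι.injective (congrArg (·.1.1) e))))⟩

/-- `One.of_index` with `S4278`; by `S1059`, `S1067` the index is `r ^ 6 (r ^ 8 + r ^ 4 + 1)`. -/
theorem one_D4 {K : Type} [Field K] [Fintype K] {r : ℕ} (o : Odd r) (hK : Fintype.card K = r ^ 3) :
    One (Lie.twistedD4 K r) := by
  obtain ⟨F, _, _, f, rfl, i⟩ := g2_le_d4 hK
  refine One.of_index (Agent.S4278.result o) f i fun d => ?_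
  have := f.range.card_mul_index
  rw [← Nat.card_congr (MonoidHom.ofInjective i).toEquiv, Agent.S1067.result (FiniteField.isPrimePow_card F) hK] at this
  have e : f.range.index = Fintype.card F ^ 6 * (Fintype.card F ^ 8 + Fintype.card F ^ 4 + 1) :=
    Nat.eq_of_mul_eq_mul_left (Nat.card_pos (α := chevG2.group F)) (by rw [this, Agent.S1059.result rfl]; ring)
  exact Nat.not_even_iff_odd.2 (o.pow.mul (o.pow.add_odd o.pow).add_one) (even_iff_two_dvd.2 (e ▸ d))

end Cfsg.Lib.Q5H
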