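import Cfsg.Prelude.Def_CaseTheorems
import Mathlib.GroupTheory.Sylow

/-!
# Q5H: configurations in abstract groups that are visible in `SL₅(K)`
-/

set_option autoImplicit false

namespace Cfsg.Lib.Q5H

open Subgroup
open scoped commutatorElement

variable {X Y : Type*} [Group X] [Group Y] {t s g a b : X} {r : ℕ}

/-- An involution lying in a four-group of conjugate involutions. -/
def Pure (t : X) : Prop := t ≠ 1 ∧ t * t = 1 ∧ ∃ s, IsConj t s ∧ IsConj t (t * s)

/-- There is an `E₈` all of whose involutions are `Pure`. -/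
def Bad (X : Type*) [Group X] : Prop :=
  ∃ a b c : X, Pure a ∧ Pure b ∧ Pure c ∧ Pure (a * b) ∧ Pure (a * c) ∧ Pure (b * c) ∧ Pure (a * b * c)

/-- One class of involutions. -/
def One (X : Type*) [Group X] : Prop := ∀ s t : X, orderOf s = 2 → orderOf t = 2 → IsConj s t

/-- A four-group of `Pure` involutions centralised by an element of order `r`. -/
def Tv (r : ℕ) (X : Type*) [Group X] : Prop :=
  ∃ a b u : X, Pure a ∧ Pure b ∧ Pure (a * b) ∧ u ≠ 1 ∧ u ^ r = 1 ∧ Commute u a ∧ Commute u b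

/-- A Heisenberg triple, with real centre if `r = 3`. -/
def Hs (r : ℕ) (X : Type*) [Group X] : Prop :=
  ∃ x y u : X, u ≠ 1 ∧ u ^ r = 1 ∧ Commute x u ∧ Commute y u ∧ ⁅x, y⁆ = u ∧ (r = 3 → IsConj u u⁻¹)

theorem sq_of_isConj (h : t * t = 1) (e : IsConj t s) : s * s = 1 := by
  obtain ⟨c, rfl⟩ := isConj_iff.1 e
  rw [conj_mul, h, mul_one, mul_inv_cancel]

theorem comm_of_sq (ha : a * a = 1) (hb : b * b = 1) (h : a * b * (a * b) = 1) : a * b = b * a := by
  rw [← inv_eq_of_mul_eq_one_right h, mul_inv_rev, inv_eq_of_mul_eq_one_right ha, inv_eq_of_mul_eq_one_right hb]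

theorem ord_two (h : t * t = 1) (n : t ≠ 1) : orderOf t = 2 := orderOf_eq_prime (by rw [pow_two, h]) n

theorem mk_ne_one {w : X} (h : g * w ≠ w * g) : (QuotientGroup.mk g : X ⧸ center X) ≠ 1 := fun e =>
  h (mem_center_iff.1 ((QuotientGroup.eq_one_iff g).1 e) w).symm

theorem Pure.map (h : Pure t) (f : X →* Y) (n : f t ≠ 1) : Pure (f t) :=
  let ⟨_, h2, s, e1, e2⟩ := h
  ⟨n, by rw [← map_mul, h2, map_one], f s, f.map_isConj e1, map_mul f t s ▸ f.map_isConj e2⟩

theorem Pure.inj (h : Pure t) (f : X →* Y) (i : Function.Injective f) : Pure (f t) :=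
  h.map f fun e => h.1 ((injective_iff_map_eq_one f).1 i t e)

theorem Pure.conj (h : Pure t) (e : IsConj t s) : Pure s := by
  obtain ⟨c, rfl⟩ := isConj_iff.1 e
  exact h.inj (MulAut.conj c).toMonoidHom (MulAut.conj c).injective

/-- `g` permutes `t`, `g t g⁻¹` and their product cyclically. -/
theorem Pure.of_three (n : t ≠ 1) (h : t * t = 1) (g : X) (e : t * (g * t * g⁻¹) = g * (g * t * g⁻¹) * g⁻¹) : Pure t :=
  ⟨n, h, _, isConj_iff.2 ⟨g, rfl⟩, (isConj_iff.2 ⟨g, rfl⟩ : IsConj t _).trans (isConj_iff.2 ⟨g, e.symm⟩)⟩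

theorem Bad.map (h : Bad X) (f : X →* Y) (i : Function.Injective f) : Bad Y := by
  obtain ⟨a, b, c, h1, h2, h3, h4, h5, h6, h7⟩ := h
  refine ⟨f a, f b, f c, h1.inj f i, h2.inj f i, h3.inj f i, ?_, ?_, ?_, ?_⟩ <;> simp only [← map_mul]
  exacts [h4.inj f i, h5.inj f i, h6.inj f i, h7.inj f i]

theorem Bad.congr (h : Bad Y) (e : X ≃* Y) : Bad X := h.map e.symm.toMonoidHom e.symm.injective

theorem Tv.congr (h : Tv r Y) (e : X ≃* Y) : Tv r X := by
  obtain ⟨a, b, u, h1, h2, h3, h4, h5, h6, h7⟩ := h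
  have i := e.symm.injective
  exact ⟨e.symm a, e.symm b, e.symm u, h1.inj e.symm.toMonoidHom i, h2.inj e.symm.toMonoidHom i,
    map_mul e.symm a b ▸ h3.inj e.symm.toMonoidHom i, by simpa, by rw [← map_pow, h5, map_one], h6.map _, h7.map _⟩

theorem Hs.congr (h : Hs r Y) (e : X ≃* Y) : Hs r X := by
  obtain ⟨x, y, u, h1, h2, h3, h4, h5, h6⟩ := h
  exact ⟨e.symm x, e.symm y, e.symm u, by simpa, by rw [← map_pow, h2, map_one], h3.map _, h4.map _,
    by rw [← map_commutatorElement, h5], fun k => map_inv e.symm u ▸ e.symm.toMonoidHom.map_isConj (h6 k)⟩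

theorem One.congr (h : One Y) (e : X ≃* Y) : One X := fun s t hs ht => by
  simpa using e.symm.toMonoidHom.map_isConj (h (e s) (e t) (by simpa) (by simpa))

theorem rank_congr {p k : ℕ} (h : PRankLE p k Y) (e : X ≃* Y) : PRankLE p k X := fun A hA hp => by
  rw [← card_map_of_injective (f := e.toMonoidHom) e.injective]
  refine h _ inferInstance ?_
  rintro _ ⟨a, ha, rfl⟩
  rw [← map_pow, hp a ha, map_one]

/-- An injective homomorphism from a large elementary abelian group. -/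
theorem not_rank {V : Type*} [AddCommGroup V] {p k : ℕ} (f : Multiplicative V →* X) (i : Function.Injective f)
    (hp : ∀ v : V, p • v = 0) (hc : p ^ k < Nat.card V) : ¬ PRankLE p k X := fun h => by
  have := h f.range inferInstance (by
    rintro _ ⟨v, rfl⟩
    rw [← map_pow, ← ofAdd_toAdd v, ← ofAdd_nsmul, hp, ofAdd_zero, map_one])
  rw [← Nat.card_congr (MonoidHom.ofInjective i).toEquiv, Nat.card_congr Multiplicative.toAdd] at this
  omega

theorem exists_three (h3 : ¬ PRankLE 2 2 X) : ∃ a b c : X, ∀ x ∈ [a, b, c, a * b, a * c, b * c, a * b * c],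
    x ≠ 1 ∧ x * x = 1 := by
  classical
  simp only [PRankLE, not_forall, not_le] at h3
  obtain ⟨A, -, h2, hc⟩ := h3
  have nx : ∀ S : Finset X, S.card ≤ 4 → ∃ x ∈ A, x ∉ S := fun S hS => by
    by_contra! k
    have := Set.ncard_le_ncard (s := (A : Set X)) (t := (S : Set X)) (fun x hx => k x hx) S.finite_toSet
    rw [Set.ncard_coe_finset, ← Nat.card_coe_set_eq, SetLike.coe_sort_coe] at this
    omega
  have sq : ∀ x ∈ A, x * x = 1 := fun x hx => by rw [← pow_two, h2 x hx]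
  have ne : ∀ x ∈ A, ∀ y, y ≠ x → x * y ≠ 1 := fun x hx y n e =>
    n ((eq_inv_of_mul_eq_one_right e).trans (inv_eq_of_mul_eq_one_right (sq x hx)))
  obtain ⟨a, ha, na⟩ := nx {1} (by simp)
  obtain ⟨b, hb, nb⟩ := nx {1, a} (Finset.card_le_two.trans (by norm_num))
  obtain ⟨c, hc, nc⟩ := nx {1, a, b, a * b} Finset.card_le_four
  simp only [Finset.mem_insert, Finset.mem_singleton, not_or] at na nb nc
  refine ⟨a, b, c, ?_⟩
  simp only [List.forall_mem_cons]
  exact ⟨⟨na, sq a ha⟩, ⟨nb.1, sq b hb⟩, ⟨nc.1, sq c hc⟩, ⟨ne a ha b nb.2, sq _ (mul_mem ha hb)⟩,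
    ⟨ne a ha c nc.2.1, sq _ (mul_mem ha hc)⟩, ⟨ne b hb c nc.2.2.1, sq _ (mul_mem hb hc)⟩,
    ⟨ne _ (mul_mem ha hb) c nc.2.2.2, sq _ (mul_mem (mul_mem ha hb) hc)⟩, nofun⟩

theorem bad_of_all (h : ∀ t : X, t ≠ 1 → t * t = 1 → Pure t) (h3 : ¬ PRankLE 2 2 X) : Bad X := by
  obtain ⟨a, b, c, k⟩ := exists_three h3
  have := fun x hx => h x (k x hx).1 (k x hx).2
  simp only [List.forall_mem_cons] at this
  exact ⟨a, b, c, this.1, this.2.1, this.2.2.1, this.2.2.2.1, this.2.2.2.2.1, this.2.2.2.2.2.1, this.2.2.2.2.2.2.1⟩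

theorem One.bad (h : One X) (h3 : ¬ PRankLE 2 2 X) : Bad X := by
  obtain ⟨a, b, c, k⟩ := exists_three h3
  have o := fun x hx => ord_two (k x hx).2 (k x hx).1
  simp only [List.forall_mem_cons] at o k
  have p : Pure a := ⟨k.1.1, k.1.2, b, h _ _ o.1 o.2.1, h _ _ o.1 o.2.2.2.1⟩
  exact bad_of_all (fun t n e => p.conj (h _ _ o.1 (ord_two e n))) h3

/-- A subgroup of odd index meets every class of involutions. -/
theorem One.of_index [Finite Y] (h : One X) (f : X →* Y) (i : Function.Injective f) (o : ¬ 2 ∣ f.range.index) :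
    One Y := by
  have key : ∀ y : Y, orderOf y = 2 → ∃ x, orderOf x = 2 ∧ IsConj y (f x) := fun y hy => by
    have hp : IsPGroup 2 (zpowers y) := .of_card (n := 1) (by rw [Nat.card_zpowers, hy, pow_one])
    obtain ⟨⟨q⟩⟩ := hp.nonempty_fixed_point_of_prime_not_dvd_card (Y ⧸ f.range) o |>.coe_sort
    rename_i hq
    induction q using QuotientGroup.induction_on with
    | H g =>
      obtain ⟨x, e⟩ := QuotientGroup.eq.1 (hq ⟨y, mem_zpowers y⟩ : QuotientGroup.mk (y * g) = QuotientGroup.mk g).symm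
      have c : IsConj y (f x) := isConj_iff.2 ⟨g⁻¹, by rw [inv_inv, mul_assoc]; exact e.symm⟩
      obtain ⟨u, hu⟩ := id c
      exact ⟨x, by rw [← orderOf_injective f i, ← hy, hu.orderOf_eq], c⟩
  intro s t hs ht
  obtain ⟨x, hx, c⟩ := key s hs
  obtain ⟨y, hy, d⟩ := key t ht
  exact (c.trans (f.map_isConj (h x y hx hy))).trans d.symm

end Cfsg.Lib.Q5H
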